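import Cfsg.Agent.H362.Dl.SpSmall
import Cfsg.Agent.H362.Dl.SixtyFour
import Cfsg.Agent.H755.Dl.Lin
import Cfsg.Agent.H759.Dl.Small
import Cfsg.Agent.Characters.CCBasic

/-!
# S4769: the row of `PSp_{2m}(q)`, `p` prime to `q` (helper362)

`row_psp_ne`.
-/

set_option autoImplicit false
set_option linter.unusedSectionVars false

open Cfsg

namespace Cfsg.Agent.H362.Dl

open Cfsg.Agent.H477.HC Module Cfsg.Agent.H53.HC Cfsg.Agent.H246.Dl Cfsg.Agent.Characters

universe u v

section

variable (K : Type v) [Field K] [Finite K]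

/-- the natural representation -/
noncomputable def natRep (m : ℕ) : Matrix.symplecticGroup (Fin m) K →* GL (Fin (m + m)) K :=
  (Units.mapEquiv (Matrix.reindexAlgEquiv K K (finSumFinEquiv (m := m) (n := m))).toMulEquiv).toMonoidHom.comp (spHom m K)

theorem natRep_injective (m : ℕ) : Function.Injective (natRep K m) := by
  refine (Units.mapEquiv (Matrix.reindexAlgEquiv K K (finSumFinEquiv (m := m) (n := m))).toMulEquiv).injective.comp ?_
  intro A B hAB
  have h2 := congrArg (fun g : GL (Fin m ⊕ Fin m) K => (g : Matrix (Fin m ⊕ Fin m) (Fin m ⊕ Fin m) K)) hAB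
  exact Subtype.ext h2

theorem finite_psp (m : ℕ) : Finite (PSp m K) := by
  unfold PSp
  infer_instance

theorem dlLe_psp {m r e : ℕ} (hr : r.Prime) (hrK : ¬ r ∣ Nat.card K) (he0 : 0 < e)
    (he : ∀ k, 0 < k → r ∣ Nat.card K ^ k - 1 → e ≤ k) : DlLe r (Nat.log r (2 * m / e) + 1) (PSp m K) := by
  have : Fact r.Prime := ⟨hr⟩
  have hrF : (r : K) ≠ 0 := by
    intro h
    obtain ⟨p, hp⟩ := CharP.exists K
    have hpr : p.Prime := (CharP.char_is_prime_or_zero K p).resolve_right (CharP.char_ne_zero_of_finite K p)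
    have : Fact p.Prime := ⟨hpr⟩
    rw [CharP.cast_eq_zero_iff K p] at h
    have h1 : p = r := (Nat.prime_dvd_prime_iff_eq hpr hr).1 h
    obtain ⟨s, hs⟩ := card_pow K p
    have hs0 : s ≠ 0 := by
      rintro rfl
      rw [pow_zero] at hs
      have : 1 < Nat.card K := Finite.one_lt_card
      omega
    apply hrK
    rw [hs, h1]
    exact dvd_pow_self r hs0
  have h1 := H755.Dl.DlLe_ne_ord (f := QuotientGroup.mk' (Subgroup.center (Matrix.symplecticGroup (Fin m) K)))
    (ρ := natRep K m) hrF he0 he (QuotientGroup.mk'_surjective _) (natRep_injective K m)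
  rw [← two_mul] at h1
  exact h1

/-- `PSp` is not commutative -/
theorem not_comm_psp {m : ℕ} (hm : 2 ≤ m) : ¬ ∀ a b : PSp m K, a * b = b * a := by
  intro hc
  let _ := Fintype.ofFinite K
  have hq : 1 < Nat.card K := Finite.one_lt_card
  obtain ⟨χ₁, χ₂, f, g, hχ₁, hχ₂, hf, hg, hf', hg'⟩ := Cfsg.Agent.H677.SpRank.exists_chars (F := K) hm
  have h1 := CCBasic.irr_apply_one_of_comm hc hχ₁
  rw [hf] at h1
  have h2 : f = 1 := by exact_mod_cast h1
  rw [h2] at hf'
  have hqz : (2 : ℤ) ≤ Nat.card K := by exact_mod_cast hq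
  have h3 : (Nat.card K : ℤ) ≤ (Nat.card K : ℤ) ^ m := by
    calc (Nat.card K : ℤ) = (Nat.card K : ℤ) ^ 1 := (pow_one _).symm
      _ ≤ (Nat.card K : ℤ) ^ m := pow_le_pow_right₀ (by omega) (by omega)
  have h4 : (Nat.card K : ℤ) ≤ (Nat.card K : ℤ) ^ (m - 1) := by
    calc (Nat.card K : ℤ) = (Nat.card K : ℤ) ^ 1 := (pow_one _).symm
      _ ≤ (Nat.card K : ℤ) ^ (m - 1) := pow_le_pow_right₀ (by omega) (by omega)
  obtain ⟨q, hq'⟩ : ∃ q : ℤ, q = (Nat.card K : ℤ) := ⟨_, rfl⟩
  obtain ⟨a, ha⟩ : ∃ a : ℤ, a = (Nat.card K : ℤ) ^ m := ⟨_, rfl⟩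
  obtain ⟨b, hb⟩ : ∃ b : ℤ, b = (Nat.card K : ℤ) ^ (m - 1) := ⟨_, rfl⟩
  rw [← ha, ← hb, ← hq'] at hf'
  rw [← ha, ← hq'] at h3
  rw [← hb, ← hq'] at h4
  rw [← hq'] at hqz
  have h5 : q * (a - 1) * (b + 1) ≥ 2 * (q - 1) * 3 := by
    have h6 : q * (a - 1) ≥ 2 * (q - 1) := by nlinarith
    nlinarith
  push_cast at hf'
  nlinarith

theorem dvd_card_center (m : ℕ) (hm : 0 < m) (h2 : (2 : K) ≠ 0) :
    2 ∣ Nat.card (Subgroup.center (Matrix.symplecticGroup (Fin m) K)) := by
  classical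
  have h1 : (⟨-1, by rw [SymplecticGroup.mem_iff]; simp⟩ : Matrix.symplecticGroup (Fin m) K) ∈
      Subgroup.center (Matrix.symplecticGroup (Fin m) K) := by
    rw [Subgroup.mem_center_iff]
    intro g
    apply Subtype.ext
    change (g : Matrix (Fin m ⊕ Fin m) (Fin m ⊕ Fin m) K) * (-1) = (-1) * (g : Matrix (Fin m ⊕ Fin m) (Fin m ⊕ Fin m) K)
    rw [mul_neg, neg_mul, mul_one, one_mul]
  have h3 : orderOf (⟨_, h1⟩ : Subgroup.center (Matrix.symplecticGroup (Fin m) K)) = 2 := by
    refine orderOf_eq_prime ?_ ?_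
    · apply Subtype.ext
      apply Subtype.ext
      change (-1 : Matrix (Fin m ⊕ Fin m) (Fin m ⊕ Fin m) K) ^ 2 = 1
      rw [neg_one_sq]
    · intro h
      have h4 : (-1 : Matrix (Fin m ⊕ Fin m) (Fin m ⊕ Fin m) K) = 1 := congrArg (fun z => ((z : Subgroup.center (Matrix.symplecticGroup (Fin m) K)) : Matrix.symplecticGroup (Fin m) K).1) h
      have h5 := congrFun (congrFun h4 (Sum.inl ⟨0, hm⟩)) (Sum.inl ⟨0, hm⟩)
      rw [Matrix.neg_apply, Matrix.one_apply_eq] at h5
      apply h2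
      linear_combination -h5
  rw [← h3]
  exact orderOf_dvd_natCard _

/-- `PSp_4(3)`, `PSp_4(5)` -/
theorem dlLe_two_four (h : Nat.card K = 3 ∨ Nat.card K = 5) : DlLe 2 2 (PSp 2 K) := by
  have := finite_psp K 2
  refine dlLe_two_of_two_pow fun hd => ?_
  have h2 : (2 : K) ≠ 0 := by
    intro h2
    obtain ⟨p, hp⟩ := CharP.exists K
    have hpr : p.Prime := (CharP.char_is_prime_or_zero K p).resolve_right (CharP.char_ne_zero_of_finite K p)
    have : Fact p.Prime := ⟨hpr⟩
    have h3 : ((2 : ℕ) : K) = 0 := by exact_mod_cast h2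
    rw [CharP.cast_eq_zero_iff K p] at h3
    have h4 := (Nat.prime_dvd_prime_iff_eq hpr Nat.prime_two).1 h3
    subst h4
    obtain ⟨s, hs⟩ := card_pow K 2
    rcases s with _ | s
    · rw [hs] at h
      omega
    · rw [pow_succ] at hs
      omega
  have h3 := Subgroup.card_eq_card_quotient_mul_card_subgroup (Subgroup.center (Matrix.symplecticGroup (Fin 2) K))
  have h4 := dvd_card_center K 2 (by norm_num) h2
  have h5 : 2 ^ 7 * 2 ∣ Nat.card (Matrix.symplecticGroup (Fin 2) K) := by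
    rw [h3]
    exact Nat.mul_dvd_mul hd h4
  rw [Nat.card_congr (isoSp 2 K).toEquiv, card_spF] at h5
  rcases h with h | h
  · rw [h] at h5
    norm_num [Finset.prod_range_succ] at h5
  · rw [h] at h5
    norm_num [Finset.prod_range_succ] at h5

theorem exists_ord {r : ℕ} (hr : r.Prime) (hrK : ¬ r ∣ Nat.card K) : ∃ e, 0 < e ∧ r ∣ Nat.card K ^ e - 1 ∧
    ∀ k, 0 < k → r ∣ Nat.card K ^ k - 1 → e ≤ k := by
  classical
  have hf : Fact r.Prime := ⟨hr⟩
  have hex : ∃ e, 0 < e ∧ r ∣ Nat.card K ^ e - 1 := by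
    refine ⟨r - 1, by have := hr.two_le; omega, ?_⟩
    have h1 : ((Nat.card K : ℕ) : ZMod r) ≠ 0 := by
      rw [Ne, ZMod.natCast_eq_zero_iff]
      exact hrK
    have h2 := ZMod.pow_card_sub_one_eq_one h1
    have h3 : 1 ≤ Nat.card K ^ (r - 1) := Nat.one_le_pow _ _ Nat.card_pos
    rw [← ZMod.natCast_eq_zero_iff, Nat.cast_sub h3, Nat.cast_pow, h2, Nat.cast_one, sub_self]
  exact ⟨Nat.find hex, (Nat.find_spec hex).1, (Nat.find_spec hex).2, fun k hk hk' => Nat.find_min' hex ⟨hk, hk'⟩⟩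

/-- **the characters**: derived length at most `2`, or enough characters -/
theorem dl_or_many {m : ℕ} (hm : 2 ≤ m) (hmq : m = 2 → 3 ≤ Nat.card K) {r : ℕ} (hr : r.Prime)
    (hrK : ¬ r ∣ Nat.card K) : DlLe r 2 (PSp m K) ∨ Row r (PSp m K) := by
  have hf : Fact r.Prime := ⟨hr⟩
  obtain ⟨e, he0, he, hmin⟩ := exists_ord K hr hrK
  have hdl := dlLe_psp K (m := m) hr hrK he0 hmin
  rcases Nat.lt_or_ge 2 (Nat.log r (2 * m / e) + 1) with hL | hL
  swap
  · exact Or.inl (hdl.mono hL)
  rcases hr.eq_two_or_odd' with h2 | hodd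
  · -- `r = 2`
    subst h2
    obtain ⟨p, hp⟩ := CharP.exists K
    have hpr : p.Prime := (CharP.char_is_prime_or_zero K p).resolve_right (CharP.char_ne_zero_of_finite K p)
    have : Fact p.Prime := ⟨hpr⟩
    have hp2 : p ≠ 2 := by
      rintro rfl
      obtain ⟨s, hs⟩ := card_pow K 2
      apply hrK
      rw [hs]
      refine dvd_pow_self 2 ?_
      rintro rfl
      rw [pow_zero] at hs
      have : 1 < Nat.card K := Finite.one_lt_card
      omega
    have he1 : e = 1 := by
      have h3 : e ≤ 1 := by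
        refine hmin 1 one_pos ?_
        rw [pow_one]
        have h4 : Nat.card K % 2 = 1 := by omega
        omega
      omega
    subst he1
    rw [Nat.div_one] at hdl
    by_cases hs : (Nat.card K = 3 → 5 ≤ m) ∧ (Nat.card K = 5 → 3 ≤ m)
    · exact Or.inr ⟨_, hdl, many_two K hp2 hm hs.1 hs.2⟩
    · by_cases h5 : Nat.card K = 5
      · have hm2 : m = 2 := by
          by_contra hne
          apply hs
          exact ⟨fun h => by omega, fun _ => by omega⟩
        subst hm2
        exact Or.inl (dlLe_two_four K (Or.inr h5))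
      · have h3 : Nat.card K = 3 := by
          by_contra hne
          exact hs ⟨fun h => absurd h hne, fun h => absurd h h5⟩
        have hm4 : m ≤ 4 := by
          by_contra hne
          apply hs
          exact ⟨fun h => by omega, fun h => by omega⟩
        interval_cases m
        · exact Or.inl (dlLe_two_four K (Or.inl h3))
        · have h6 : Nat.log 2 (2 * 3) + 1 = 3 := by
            rw [show Nat.log 2 (2 * 3) = 2 from by norm_num]
          exact Or.inr ⟨3, by rw [h6] at hdl; exact hdl, many_six_three K h3⟩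
        · have h6 : Nat.log 2 (2 * 4) + 1 = 4 := by
            rw [show Nat.log 2 (2 * 4) = 3 from by norm_num]
          exact Or.inr ⟨4, by rw [h6] at hdl; exact hdl, many_eight_three K h3⟩
  · -- `r` odd
    refine Or.inr ⟨_, hdl, many_odd K he0 he (by omega) ?_⟩
    rw [Nat.add_sub_cancel]
    have hr3 : 3 ≤ r := by
      have := hr.two_le
      rcases hodd with ⟨c, hc⟩
      omega
    have hx : 2 * m / e ≠ 0 := by
      intro h
      rw [h, Nat.log_zero_right] at hL
      omega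
    calc 3 ^ Nat.log r (2 * m / e) * e ≤ r ^ Nat.log r (2 * m / e) * e :=
          Nat.mul_le_mul_right _ (Nat.pow_le_pow_left hr3 _)
      _ ≤ (2 * m / e) * e := Nat.mul_le_mul_right _ (Nat.pow_log_le_self r hx)
      _ ≤ 2 * m := Nat.div_mul_le_self _ _

end

/-- **The row of `PSp_{2m}(q)`, `r` prime to `q`.** -/
theorem row_psp_ne (T : H596.OneFacts.FactTwo.{u}) (I : H671.H5.FactIM.{u}) {S : Type u} [Group S] [Finite S]
    [IsSimpleGroup S] {K : Type v} [Field K] [Finite K] {m : ℕ} (hm : 2 ≤ m) (hmq : m = 2 → 3 ≤ Nat.card K)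
    (e : S ≃* PSp m K) {r : ℕ} (hr : r.Prime) (hd : r ∣ Nat.card S) (hrK : ¬ r ∣ Nat.card K) : Row r S := by
  have hf : Fact r.Prime := ⟨hr⟩
  have := finite_psp K m
  rcases dl_or_many K hm hmq hr hrK with h | h
  · refine H759.Dl.row_of_dl_two T I (fun hc => ?_) hr hd (h.of_equiv e)
    exact not_comm_psp K hm fun a b => by
      have h1 := hc.is_comm.comm (e.symm a) (e.symm b)
      have h2 := congrArg e h1
      rw [map_mul, map_mul, e.apply_symm_apply, e.apply_symm_apply] at h2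
      exact h2
  · exact h.of_equiv e

end Cfsg.Agent.H362.Dl
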